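import Cfsg.Agent.Lib.FlavF.A
import Cfsg.Agent.Lib.PF.Wielandt
import Cfsg.Agent.Lib.PGroup.Omega

/-! Flavell's theorem on the fixed points of a coprime automorphism of odd prime order. -/

set_option autoImplicit false
set_option linter.unusedSectionVars false

namespace CfsgLib.FlavF

open Subgroup
open scoped commutatorElement Pointwise

universe u
variable {Γ : Type u} [Group Γ] [Finite Γ]

theorem Ctx.false {p : ℕ} {x : Γ} {G : Subgroup Γ} (h : Ctx p x G) : False := by
  have := h.nor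
  have := h.sol
  have hG0 : G ≠ ⊥ := fun e => h.bad (e ▸ inf_le_left.trans bot_le)
  obtain ⟨r, V, hr, hVn, hV0, hVG, hV, hmin⟩ := Core.exists_elementaryAbelian_minimal_normal_le hG0
  have hVc : IsMulCommutative V := hV.1
  have hVV : V ≤ centralizer (V : Set Γ) := le_centralizer V
  have hVZ : ¬ G ≤ centralizer (V : Set Γ) := fun e =>
    hV0 (le_bot_iff.1 (h.Z_eq ▸ le_inf hVG (le_centralizer_iff.1 e)))
  obtain ⟨W, hWd⟩ : ∃ W, W = V ⊓ Dg x G ⊔ ⁅V, zpowers x⁆ := ⟨_, rfl⟩
  have hWV : W ≤ V := hWd ▸ sup_le inf_le_left (commutator_le_left _ _)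
  have hW : ¬ V ≤ W := fun e => hV0 (h.eq_bot hVn hVG ((inf_le_inf_right _ e).trans (by
    rw [hWd, Core.sup_inf_assoc_of_le_normalizer (inf_le_right.trans (Dg_le x G))
      (inf_le_left.trans (normalizer_commutator_ge_left _ _)), inf_comm _ (Cx x),
      Coprime.centralizer_inf_commutator_eq_bot le_normalizer_of_normal (h.cop' hVG), sup_bot_eq]
    exact inf_le_right)))
  let S := Core.commutatorStabilizer V W
  have memS : ∀ g, (∀ v ∈ V, ⁅g, v⁆ ∈ W) → g ∈ S := fun g hg =>
    ⟨Core.mem_normalizer_of_forall_conj_mem fun w hw => by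
      simpa [commutatorElement_def] using mul_mem (hg w (hWV hw)) hw, hg⟩
  have hNS : ∀ N : Subgroup Γ, N.Normal → N ≤ S → N ≤ centralizer (V : Set Γ) := by
    intro N hN e
    rcases hmin ⁅N, V⁆ inferInstance (commutator_le_right _ _) with e' | e'
    · exact commutator_eq_bot_iff_le_centralizer.1 e'
    · exact absurd (e' ▸ (Core.le_commutatorStabilizer_iff.1 e).2) hW
  have hS : ¬ G ≤ S := fun e => hVZ (hNS G h.nor e)
  have hVS : V ≤ S := fun a ha => memS a fun v hv => by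
    rw [commutatorElement_eq_one_iff_mul_comm.2 (hVV hv a ha)]; exact one_mem _
  have hDG : Dg x G ≤ G := iSup₂_le fun g hg => inf_le_left.trans (Lg_le le_normalizer_of_normal hg)
  have hDS : Dg x G ≤ S := fun d hd => memS d fun v hv => by
    obtain ⟨u, hu, c, hc, rfl⟩ := Coprime.exists_commutator_mul_centralizer (K := V) le_normalizer_of_normal
      (h.cop' hVG) (Or.inl (Coprime.isSolvable_zpowers x)) hv
    have h1 : d ∈ normalizer ((⁅V, zpowers x⁆ : Subgroup Γ) : Set Γ) :=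
      Core.normalizer_inf_le_normalizer_commutator _ _ ⟨le_normalizer_of_normal (mem_top d),
        centralizer_le_normalizer _ (Dg_le x G hd)⟩
    have h2 : ⁅d, c⁆ ∈ V ⊓ Dg x G := ⟨commutator_le_right ⊤ V (commutator_mem_commutator (mem_top d) hc.1), by
      have := (Dg_norm (G := G) ⟨hVG hc.1, hc.2⟩ _).1 (inv_mem hd)
      simpa [commutatorElement_def, mul_assoc] using mul_mem hd this⟩
    have h3 : u ∈ W := hWd ▸ mem_sup_right hu
    rw [commutatorElement_mul_right_eq_mul_conj]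
    refine mul_mem (mul_mem (mul_mem ?_ h3) (hWd ▸ mem_sup_left h2)) (inv_mem h3)
    exact mul_mem (hWd ▸ mem_sup_right ((h1 u).1 hu)) (inv_mem h3)
  have hCS : G ⊓ Cx x ≤ S := (h.quo V hVn hV0 hVG).trans (sup_le hDS hVS)
  have hKS : ∀ K ≤ G, zpowers x ≤ normalizer (K : Set Γ) → K ⊔ V ≠ G → K ≤ S := by
    intro K hK hx hne
    have h1 : K ⊔ V < G := lt_of_le_of_ne (sup_le hK hVG) hne
    have h2 : zpowers x ≤ normalizer ((K ⊔ V : Subgroup Γ) : Set Γ) :=
      (le_inf hx le_normalizer_of_normal).trans (Core.normalizer_inf_le_normalizer_sup _ _)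
    refine le_sup_left.trans ((h.dec h1.le h2).ge.trans
      (sup_le (fun k hk => memS k fun v hv => ?_) ((inf_le_inf_right _ h1.le).trans hCS)))
    have h3 := h.dec (K := ⁅K ⊔ V, zpowers x⁆ ⊓ V) (inf_le_right.trans hVG)
      ((le_inf (normalizer_commutator_ge_right _ _) le_normalizer_of_normal).trans
        inf_normalizer_le_normalizer_inf)
    have h4 : ⁅k, v⁆ ∈ ⁅K ⊔ V, zpowers x⁆ ⊓ V := ⟨by
      have := (normalizer_commutator_ge_left _ (zpowers x) (mem_sup_right hv : v ∈ K ⊔ V) _).1 (inv_mem hk)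
      simpa [commutatorElement_def, mul_assoc] using mul_mem hk this,
      commutator_le_right ⊤ V (commutator_mem_commutator (mem_top k) hv)⟩
    rw [hWd]
    exact sup_le (le_sup_of_le_right (commutator_mono inf_le_right le_rfl)) (le_sup_of_le_left
      (le_inf (inf_le_left.trans inf_le_right) ((inf_le_inf_right _ inf_le_left).trans (h.sub _ h1 h2))))
      (h3.ge h4)
  have hLG : ∀ g ∈ G, Lg x g ≤ G := fun g hg => Lg_le le_normalizer_of_normal hg
  obtain ⟨g, hg, hL⟩ : ∃ g ∈ G, Lg x g ⊔ V = G := by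
    by_contra hn
    push Not at hn
    exact hS (h.com.ge.trans (comm_le_of (le_normalizer_of_normal (mem_top x)) fun g hg =>
      hKS _ (hLG g hg) (Lg_norm x g) (hn g hg) (mem_Lg1 x g)))
  have hdis : ∀ g ∈ G, Lg x g ⊔ V = G → Lg x g ⊓ V = ⊥ := by
    intro g hg hL
    refine (hmin _ (h.normal_of (hL.ge.trans (sup_le ?_ ?_)) ?_) inf_le_right).resolve_right fun e => ?_
    · exact (le_inf le_normalizer le_normalizer_of_normal).trans inf_normalizer_le_normalizer_inf
    · exact (hVV.trans (centralizer_le inf_le_right)).trans (centralizer_le_normalizer _)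
    · exact (le_inf (Lg_norm x g) le_normalizer_of_normal).trans inf_normalizer_le_normalizer_inf
    · rw [sup_eq_left.2 (inf_eq_right.1 e)] at hL
      exact h.bad ((inf_le_inf_right _ hL.ge).trans (le_Dg x hg))
  obtain ⟨L, hLd⟩ : ∃ L, L = Lg x g := ⟨_, rfl⟩
  have hLV := hdis g hg hL
  have hLx := Lg_norm x g
  have hLD := le_Dg x hg
  have hLG' := hLG g hg
  rw [← hLd] at hL hLV hLx hLD hLG'
  have hCL : L ⊓ centralizer (V : Set Γ) = ⊥ := by
    refine h.eq_bot (h.normal_of (hL.ge.trans (sup_le ?_ ?_)) ?_) (inf_le_left.trans hLG')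
      ((inf_le_inf_right _ inf_le_left).trans hLD)
    · exact (le_inf le_normalizer le_normalizer_of_normal).trans inf_normalizer_le_normalizer_inf
    · exact (le_centralizer_iff.1 inf_le_right).trans (centralizer_le_normalizer _)
    · exact (le_inf hLx le_normalizer_of_normal).trans inf_normalizer_le_normalizer_inf
  have hM : ∀ M < L, L ≤ normalizer (M : Set Γ) → zpowers x ≤ normalizer (M : Set Γ) → M = ⊥ := by
    intro M hM h1 h2
    have h3 : M ≤ S := hKS M (hM.le.trans hLG') h2 fun e => hM.ne (by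
      rw [← sup_bot_eq M, ← hLV, inf_comm, ← Core.sup_inf_assoc_of_normal_right hM.le, e,
        inf_eq_right.2 hLG'])
    have h4 : (M ⊔ V).Normal := h.normal_of (hL.ge.trans (sup_le ((le_inf h1 le_normalizer_of_normal).trans
      (Core.normalizer_inf_le_normalizer_sup _ _)) (le_sup_right.trans le_normalizer)))
      ((le_inf h2 le_normalizer_of_normal).trans (Core.normalizer_inf_le_normalizer_sup _ _))
    exact le_bot_iff.1 (hCL ▸ le_inf hM.le (le_sup_left.trans (hNS _ h4 (sup_le h3 hVS))))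
  have hL0 : L ≠ ⊥ := by rintro rfl; rw [bot_sup_eq] at hL; exact hVZ (hL ▸ hVV)
  have hLs := Core.isSolvable_of_le hLG'
  have hLc : IsMulCommutative L := commutator_self_eq_bot_iff.1 (hM _
    (Core.commutator_self_lt_of_isSolvable hL0) (normalizer_commutator_ge_left _ _)
    ((le_inf hLx hLx).trans (Core.normalizer_inf_le_normalizer_commutator _ _)))
  have hLn : ∀ M ≤ L, L ≤ normalizer (M : Set Γ) := fun M hM =>
    ((le_centralizer L).trans (centralizer_le hM)).trans (centralizer_le_normalizer _)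
  have hLC : L ⊓ Cx x = ⊥ := hM _ (lt_of_le_of_ne inf_le_left fun e => hS (hL.ge.trans
    (sup_le (e.ge.trans ((inf_le_inf_right _ hLG').trans hCS)) hVS))) (hLn _ inf_le_left)
    ((le_centralizer_iff.1 inf_le_right).trans (centralizer_le_normalizer _))
  have := Fact.mk hr
  have hVr : IsPGroup r V := Core.isElementaryAbelian_isPGroup hV
  have hcop : (Nat.card L).Coprime (Nat.card V) := by
    obtain ⟨n, hn⟩ := IsPGroup.iff_card.1 hVr
    rw [hn]
    refine ((Nat.Prime.coprime_iff_not_dvd hr).2 fun e => ?_).symm.pow_right _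
    obtain ⟨a, ha, oa⟩ := Core.exists_mem_orderOf_eq_of_dvd_card hr e
    have h1 : PGroup.powKer L hLc r = ⊥ := by
      refine hM _ (lt_of_le_of_ne (PGroup.powKer_le _ _ _) fun e => ?_) (hLn _ (PGroup.powKer_le _ _ _))
        fun y hy => Core.mem_normalizer_of_forall_conj_mem fun b hb =>
          ⟨(hLx hy b).1 hb.1, by rw [conj_pow, hb.2]; simp⟩
      have h2 : IsPGroup r L := Core.isPGroup_of_forall_pow_eq_one fun b hb => (e.ge hb).2
      exact h.not_nilpotent (hL ▸ h2.to_sup_of_normal_right hVr).isNilpotent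
    have h2 : a ∈ PGroup.powKer L hLc r := ⟨ha, oa ▸ pow_orderOf_eq_one a⟩
    rw [h1, mem_bot] at h2
    exact hr.ne_one (by rw [← oa, h2, orderOf_one])
  have hVL : V ⊓ centralizer (L : Set Γ) = ⊥ := le_bot_iff.1 (h.Z_eq ▸ le_inf (inf_le_left.trans hVG) (by
    conv_rhs => rw [← hL, Core.centralizer_sup]
    exact le_inf inf_le_right (inf_le_left.trans hVV)))
  have hP : Nat.card (zpowers x) = p := by rw [Nat.card_zpowers, h.ord]
  have hw := PF.wielandt_frobenius L (zpowers x) V (Core.inf_eq_bot_of_coprime_card (h.cop' hLG').symm) hLx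
    (fun e he e1 u hu huu => by
      have h1 : zpowers e = zpowers x := by
        by_contra hn
        have := Core.inf_eq_bot_of_prime_card_of_not_le (hP ▸ h.prime) (H := zpowers e)
          fun e' => hn (le_antisymm (zpowers_le.2 he) e')
        exact e1 (mem_bot.1 (this ▸ mem_inf.2 ⟨he, mem_zpowers e⟩))
      have h2 : u ∈ Cx e := mem_Cx.2 (mul_inv_eq_iff_eq_mul.2 huu)
      rw [Cx, h1] at h2
      exact mem_bot.1 (hLC ▸ mem_inf.2 ⟨hu, h2⟩))
    le_normalizer_of_normal (Core.isSolvable_of_le hVG)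
    ((hcop.symm.mul_right (h.cop' hVG).symm).coprime_dvd_right (Coprime.card_sup_dvd_of_le_normalizer hLx))
  have hVL' : V ⊓ centralizer ((L ⊔ zpowers x : Subgroup Γ) : Set Γ) = ⊥ :=
    le_bot_iff.1 ((inf_le_inf_left V (centralizer_le (le_sup_left : L ≤ L ⊔ zpowers x))).trans hVL.le)
  rw [hVL, hVL', card_bot, one_pow, one_mul, mul_one, hP] at hw
  have hsurj : ∀ v ∈ V, ∃ c ∈ V ⊓ Cx x, g * (v * c) * g⁻¹ ∈ Cx x := by
    intro v hv
    have g1 := mul_mem hg (hVG hv)
    have h1 : L ≤ V ⊔ Lg x (g * v) := by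
      rw [hLd, Lg, closure_le]
      rintro _ ⟨i, rfl⟩
      have e : g⁻¹ * (x ^ i * g * (x ^ i)⁻¹) = v * ((g * v)⁻¹ * (x ^ i * (g * v) * (x ^ i)⁻¹)) *
          (x ^ i * v⁻¹ * (x ^ i)⁻¹) := by group
      rw [e]
      exact mul_mem (mul_mem (mem_sup_left hv) (mem_sup_right (mem_Lg x _ i)))
        (mem_sup_left (hVn.conj_mem _ (inv_mem hv) _))
    have h2 : Lg x (g * v) ⊔ V = G := le_antisymm (sup_le (hLG _ g1) hVG)
      (hL.ge.trans (sup_le (h1.trans (sup_comm _ _).le) le_sup_right))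
    have h3 := hdis _ g1 h2
    have h4 := Core.card_sup_mul_card_inf_of_normal L V
    have h5 := Core.card_sup_mul_card_inf_of_normal (Lg x (g * v)) V
    rw [hL, hLV] at h4
    rw [h2, h3, h4] at h5
    obtain ⟨k, hk, e⟩ := Coprime.exists_conj_smul_eq_of_le_sup le_normalizer_of_normal h1 hcop
      (Or.inl hLs) (Nat.eq_of_mul_eq_mul_right Nat.card_pos h5).ge
    obtain ⟨c, hc, e'⟩ := Coprime.exists_centralizer_conj_smul_eq (K := V) le_normalizer_of_normal
      (h.cop' hVG) (Or.inl (Coprime.isSolvable_zpowers x)) L hk hLx (e ▸ Lg_norm x _)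
    refine ⟨c, hc, mem_Cx.2 ?_⟩
    have h6 : c * (g⁻¹ * (x * g * x⁻¹)) * c⁻¹ ∈ Lg x (g * v) := by
      rw [← e, ← e']; exact Coprime.conj_mem_conj_smul (hLd ▸ mem_Lg1 x g)
    have h7 : ((g * v)⁻¹ * (x * (g * v) * x⁻¹))⁻¹ * (c * (g⁻¹ * (x * g * x⁻¹)) * c⁻¹) ∈ Lg x (g * v) ⊓ V := by
      refine mem_inf.2 ⟨mul_mem (inv_mem (mem_Lg1 x _)) h6, ?_⟩
      have e1 : ((g * v)⁻¹ * (x * (g * v) * x⁻¹))⁻¹ * (c * (g⁻¹ * (x * g * x⁻¹)) * c⁻¹) =
          x * v⁻¹ * x⁻¹ * ((g⁻¹ * (x * g * x⁻¹))⁻¹ * (v * c) * (g⁻¹ * (x * g * x⁻¹))⁻¹⁻¹) * c⁻¹ := by group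
      rw [e1]
      exact mul_mem (mul_mem (hVn.conj_mem _ (inv_mem hv) _) (hVn.conj_mem _ (mul_mem hv hc.1) _))
        (inv_mem hc.1)
    rw [h3, mem_bot, inv_mul_eq_one] at h7
    have h8 := mem_Cx.1 hc.2
    calc _ = g * v * ((g * v)⁻¹ * (x * (g * v) * x⁻¹)) * (x * c * x⁻¹) * (x * g⁻¹ * x⁻¹) := by group
      _ = _ := by rw [h7, h8]; group
  have hle : Nat.card V ≤ Nat.card (V ⊓ Cx x : Subgroup Γ) ^ 2 := by
    rw [sq, ← Nat.card_prod]
    refine Nat.card_le_card_of_surjective (fun a : (V ⊓ Cx x : Subgroup Γ) × (V ⊓ Cx x : Subgroup Γ) =>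
      (⟨g⁻¹ * a.1 * g⁻¹⁻¹ * (a.2 : Γ)⁻¹, mul_mem (hVn.conj_mem _ a.1.2.1 _) (inv_mem a.2.2.1)⟩ : V)) ?_
    rintro ⟨v, hv⟩
    obtain ⟨c, hc, e⟩ := hsurj v hv
    exact ⟨(⟨_, hVn.conj_mem _ (mul_mem hv hc.1) g, e⟩, ⟨c, hc⟩), Subtype.ext (by simp only; group)⟩
  have h1 : 1 < Nat.card (V ⊓ Cx x : Subgroup Γ) :=
    (one_lt_card_iff_ne_bot _).2 fun e => hV0 (h.eq_bot hVn hVG (e ▸ bot_le))
  rw [hw, Nat.pow_le_pow_iff_right h1] at hle
  exact h.odd (le_antisymm hle h.prime.two_le)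

theorem map_Dg {Δ : Type*} [Group Δ] (f : Γ →* Δ) {x : Γ} {G : Subgroup Γ}
    (hx : zpowers x ≤ normalizer (G : Set Γ)) (hc : (Nat.card (zpowers x)).Coprime (Nat.card G)) :
    Dg (f x) (G.map f) ≤ (Dg x G).map f := by
  refine iSup₂_le ?_
  rintro _ ⟨g, hg, rfl⟩
  rw [← map_Lg, Cx, ← MonoidHom.map_zpowers, ← Coprime.map_inf_centralizer f (Lg_norm x g)
    (Coprime.coprime_of_le hc le_rfl (inf_le_left.trans (Lg_le hx hg)))
    (Or.inl (Coprime.isSolvable_zpowers x))]
  exact map_mono (le_Dg x hg)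

theorem main_aux {p : ℕ} (hp : p.Prime) (h2 : p ≠ 2) (n : ℕ) :
    ∀ (Γ : Type u) [Group Γ] [Finite Γ] (x : Γ) (G : Subgroup Γ), Nat.card G = n → orderOf x = p →
      zpowers x ≤ normalizer (G : Set Γ) → Group.IsSolvable G → p.Coprime (Nat.card G) →
      ⁅G, zpowers x⁆ ⊓ Cx x ≤ Dg x G := by
  induction n using Nat.strong_induction_on with
  | _ n ih =>
  have key : ∀ (Γ : Type u) [Group Γ] [Finite Γ] (x : Γ) (G : Subgroup Γ), Nat.card G = n →
      orderOf x = p → G.Normal → G ⊔ zpowers x = ⊤ → Group.IsSolvable G → p.Coprime (Nat.card G) →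
      ⁅G, zpowers x⁆ ⊓ Cx x ≤ Dg x G := by
    intro Γ _ _ x G hn hx hG hsup hs hc
    have hc' : (Nat.card (zpowers x)).Coprime (Nat.card G) := by rwa [Nat.card_zpowers, hx]
    have hsub : ∀ K < G, zpowers x ≤ normalizer (K : Set Γ) → ⁅K, zpowers x⁆ ⊓ Cx x ≤ Dg x G :=
      fun K hK h1 => (ih _ (hn ▸ Core.card_lt_of_lt hK) Γ x K rfl hx h1 (Core.isSolvable_of_le hK.le)
        (hc.coprime_dvd_right (card_dvd_of_le hK.le))).trans (Dg_mono x hK.le)
    rcases (commutator_le_left G (zpowers x)).lt_or_eq with e | e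
    · rw [← Coprime.commutator_commutator_eq le_normalizer_of_normal hc']
      exact hsub _ e (normalizer_commutator_ge_right _ _)
    rw [e]
    by_contra hbad
    refine Ctx.false ⟨hp, h2, hx, hG, hsup, hs, hc', e, hsub, fun V hV h0 hVG => ?_, hbad⟩
    let f := QuotientGroup.mk' V
    have h1 : Nat.card (G.map f) < n := by
      have := Core.card_map_mk'_mul_card_inf G V
      rw [inf_eq_right.2 hVG, hn] at this
      have h3 := (one_lt_card_iff_ne_bot V).2 h0
      have h4 : 0 < Nat.card (G.map f) := Nat.card_pos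
      change Nat.card (G.map f) * _ = _ at this
      nlinarith
    have h3 : orderOf (f x) = p := by
      refine orderOf_eq_prime (hp := ⟨hp⟩) (by rw [← map_pow, ← hx, pow_orderOf_eq_one, map_one]) fun e => ?_
      have h4 := orderOf_dvd_natCard G (hVG ((QuotientGroup.eq_one_iff x).1 e))
      exact hp.ne_one (Nat.eq_one_of_dvd_coprimes hc dvd_rfl (hx ▸ h4))
    have h4 := ih _ h1 _ (f x) (G.map f) rfl h3 (by
      have := hG.map f (QuotientGroup.mk'_surjective V)
      exact le_normalizer_of_normal) (Core.isSolvable_map f G) (hc.coprime_dvd_right (card_map_dvd G f))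
    rw [Cx, ← MonoidHom.map_zpowers, ← map_commutator, e, ← Coprime.map_inf_centralizer f
      le_normalizer_of_normal (Coprime.coprime_of_le hc' le_rfl inf_le_left)
      (Or.inl (Coprime.isSolvable_zpowers x))] at h4
    have h5 := h4.trans (map_Dg f le_normalizer_of_normal hc')
    rwa [Subgroup.map_le_map_iff, QuotientGroup.ker_mk'] at h5
  intro Γ _ _ x G hn hx h1 hs hc
  let H := G ⊔ zpowers x
  let x' : H := ⟨x, mem_sup_right (mem_zpowers x)⟩
  have e1 : (G.subgroupOf H).map H.subtype = G := map_subgroupOf_eq_of_le le_sup_left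
  have e2 : (zpowers x').map H.subtype = zpowers x := MonoidHom.map_zpowers _ _
  have e3 : Nat.card (G.subgroupOf H) = Nat.card G := Core.card_subgroupOf_of_le le_sup_left
  have hN : (G.subgroupOf H).Normal := normal_subgroupOf_of_le_normalizer (sup_le le_normalizer h1)
  have h3 := key H x' (G.subgroupOf H) (e3.trans hn) (by rw [← hx]; exact (orderOf_coe x').symm) hN
    (map_injective H.subtype_injective (by
      rw [Subgroup.map_sup, e1, e2, ← MonoidHom.range_eq_map, range_subtype]))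
    (Core.isSolvable_of_mulEquiv (subgroupOfEquivOfLe le_sup_left).symm) (e3 ▸ hc)
  have h4 := (map_mono (f := H.subtype) h3).trans (map_Dg_le _ _ _)
  rw [e1] at h4
  refine le_trans ?_ h4
  rintro c ⟨c1, c2⟩
  rw [← e1, ← e2, ← map_commutator] at c1
  obtain ⟨c, c1, rfl⟩ := c1
  exact mem_map_of_mem _ ⟨c1, mem_Cx.2 (Subtype.ext (mem_Cx.1 c2))⟩

end CfsgLib.FlavF
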