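import Cfsg.Agent.Lib.Coprime.Abelian
import Cfsg.Agent.Lib.Coprime.Sylow
import Cfsg.Agent.Lib.Transfer.Focal
import Cfsg.Agent.Lib.Core.MinNormal
import Cfsg.Agent.Lib.Core.Commutator

/-! Flavell's theorem on the fixed points of a coprime automorphism of odd prime order: set-up and
the case of a non-trivial centre. -/

set_option autoImplicit false
set_option linter.unusedSectionVars false

namespace CfsgLib.FlavF

open Subgroup
open scoped commutatorElement Pointwise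

universe u
variable {Γ : Type u} [Group Γ]

abbrev Cx (x : Γ) : Subgroup Γ := centralizer ((zpowers x : Subgroup Γ) : Set Γ)

def Lg (x g : Γ) : Subgroup Γ := closure {c | ∃ i : ℕ, c = g⁻¹ * (x ^ i * g * (x ^ i)⁻¹)}

def Dg (x : Γ) (G : Subgroup Γ) : Subgroup Γ := ⨆ g ∈ G, Lg x g ⊓ Cx x

theorem mem_Cx {x c : Γ} : c ∈ Cx x ↔ x * c * x⁻¹ = c := by
  rw [Cx, Core.centralizer_zpowers, mem_centralizer_singleton_iff, mul_inv_eq_iff_eq_mul, eq_comm]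

theorem mem_Lg (x g : Γ) (i : ℕ) : g⁻¹ * (x ^ i * g * (x ^ i)⁻¹) ∈ Lg x g := subset_closure ⟨i, rfl⟩

theorem mem_Lg1 (x g : Γ) : g⁻¹ * (x * g * x⁻¹) ∈ Lg x g := by simpa using mem_Lg x g 1

theorem Lg_le {x g : Γ} {K : Subgroup Γ} (hx : zpowers x ≤ normalizer (K : Set Γ)) (hg : g ∈ K) :
    Lg x g ≤ K := by
  rw [Lg, closure_le]
  rintro _ ⟨i, rfl⟩
  exact mul_mem (inv_mem hg) ((hx (pow_mem (mem_zpowers x) i) g).1 hg)

theorem map_Lg {Δ : Type*} [Group Δ] (f : Γ →* Δ) (x g : Γ) : (Lg x g).map f = Lg (f x) (f g) := by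
  rw [Lg, Lg, MonoidHom.map_closure]
  congr 1
  ext c
  constructor
  · rintro ⟨_, ⟨i, rfl⟩, rfl⟩; exact ⟨i, by simp⟩
  · rintro ⟨i, rfl⟩; exact ⟨_, ⟨i, rfl⟩, by simp⟩

theorem Dg_le (x : Γ) (G : Subgroup Γ) : Dg x G ≤ Cx x := iSup₂_le fun _ _ => inf_le_right

theorem le_Dg (x : Γ) {G : Subgroup Γ} {g : Γ} (hg : g ∈ G) : Lg x g ⊓ Cx x ≤ Dg x G :=
  le_iSup₂ (f := fun g (_ : g ∈ G) => Lg x g ⊓ Cx x) g hg

theorem Dg_mono (x : Γ) {K G : Subgroup Γ} (h : K ≤ G) : Dg x K ≤ Dg x G :=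
  iSup₂_le fun _ hg => le_Dg x (h hg)

theorem map_Dg_le {Δ : Type*} [Group Δ] (f : Γ →* Δ) (x : Γ) (G : Subgroup Γ) :
    (Dg x G).map f ≤ Dg (f x) (G.map f) := by
  rw [map_le_iff_le_comap]
  refine iSup₂_le fun g hg => ?_
  rw [← map_le_iff_le_comap]
  refine le_trans ?_ (le_Dg (f x) (mem_map_of_mem f hg))
  rintro _ ⟨c, ⟨h1, h2⟩, rfl⟩
  refine ⟨map_Lg f x g ▸ mem_map_of_mem f h1, mem_Cx.2 ?_⟩
  rw [← map_mul, ← map_inv, ← map_mul, mem_Cx.1 h2]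

theorem comm_le_of {y : Γ} [Finite Γ] {G H : Subgroup Γ} (hy : y ∈ normalizer (G : Set Γ))
    (h : ∀ g ∈ G, g⁻¹ * (y * g * y⁻¹) ∈ H) : ⁅G, zpowers y⁆ ≤ H := by
  have key : ∀ i : ℕ, ∀ g ∈ G, ⁅g, y ^ i⁆ ∈ H := by
    intro i
    induction i with
    | zero => intro g _; simp
    | succ i ih =>
      intro g hg
      have e : ⁅g, y ^ (i + 1)⁆ = g⁻¹⁻¹ * (y * g⁻¹ * y⁻¹) * ⁅y * g * y⁻¹, y ^ i⁆ := by
        simp only [commutatorElement_def]; group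
      rw [e]
      exact mul_mem (h _ (inv_mem hg)) (ih _ ((hy g).1 hg))
  rw [commutator_le]
  intro g hg a ha
  obtain ⟨i, rfl⟩ := mem_powers_iff_mem_zpowers.2 ha
  exact key i g hg

variable [Finite Γ]

theorem Lg_norm (x g : Γ) : zpowers x ≤ normalizer (Lg x g : Set Γ) := by
  rw [zpowers_le]
  refine Core.mem_normalizer_of_forall_conj_mem fun c hc => ?_
  have : (Lg x g).map (MulAut.conj x).toMonoidHom ≤ Lg x g := by
    rw [Lg, MonoidHom.map_closure, closure_le]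
    rintro _ ⟨_, ⟨i, rfl⟩, rfl⟩
    have e : (MulAut.conj x).toMonoidHom (g⁻¹ * (x ^ i * g * (x ^ i)⁻¹)) =
        (g⁻¹ * (x * g * x⁻¹))⁻¹ * (g⁻¹ * (x ^ (i + 1) * g * (x ^ (i + 1))⁻¹)) := by
      simp only [MulEquiv.coe_toMonoidHom, MulAut.conj_apply]; group
    rw [e]
    exact mul_mem (inv_mem (mem_Lg1 x g)) (mem_Lg x g _)
  exact this (mem_map_of_mem _ hc)

theorem Dg_norm {x c : Γ} {G : Subgroup Γ} (hc : c ∈ G ⊓ Cx x) : c ∈ normalizer (Dg x G : Set Γ) := by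
  refine Core.mem_normalizer_of_forall_conj_mem fun d hd => ?_
  have h1 := map_Dg_le (MulAut.conj c).toMonoidHom x G (mem_map_of_mem _ hd)
  have h2 : (MulAut.conj c).toMonoidHom x = x := by
    have := mem_Cx.1 hc.2
    simp only [MulEquiv.coe_toMonoidHom, MulAut.conj_apply]
    rw [mul_inv_eq_iff_eq_mul] at this ⊢
    exact this.symm
  rw [h2] at h1
  refine Dg_mono x ?_ h1
  rintro _ ⟨g, hg, rfl⟩
  exact mul_mem (mul_mem hc.1 hg) (inv_mem hc.1)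

/-- a minimal counterexample -/
structure Ctx (p : ℕ) (x : Γ) (G : Subgroup Γ) : Prop where
  prime : p.Prime
  odd : p ≠ 2
  ord : orderOf x = p
  nor : G.Normal
  sup : G ⊔ zpowers x = ⊤
  sol : Group.IsSolvable G
  cop : (Nat.card (zpowers x)).Coprime (Nat.card G)
  com : ⁅G, zpowers x⁆ = G
  sub : ∀ K < G, zpowers x ≤ normalizer (K : Set Γ) → ⁅K, zpowers x⁆ ⊓ Cx x ≤ Dg x G
  quo : ∀ V : Subgroup Γ, V.Normal → V ≠ ⊥ → V ≤ G → G ⊓ Cx x ≤ Dg x G ⊔ V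
  bad : ¬ G ⊓ Cx x ≤ Dg x G

namespace Ctx
variable {p : ℕ} {x : Γ} {G : Subgroup Γ} (h : Ctx p x G)
include h

theorem normal_of {V : Subgroup Γ} (h1 : G ≤ normalizer (V : Set Γ))
    (h2 : zpowers x ≤ normalizer (V : Set Γ)) : V.Normal :=
  normalizer_eq_top_iff.1 (top_le_iff.1 (h.sup ▸ sup_le h1 h2))

theorem eq_bot {V : Subgroup Γ} (hn : V.Normal) (hV : V ≤ G) (h1 : V ⊓ Cx x ≤ Dg x G) : V = ⊥ := by
  by_contra h0
  refine h.bad fun c hc => ?_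
  have := Core.sup_inf_assoc_of_normal_right (B := V) (Dg_le x G)
  have h2 : c ∈ Dg x G ⊔ V ⊓ Cx x := this ▸ ⟨h.quo V hn h0 hV hc, hc.2⟩
  exact sup_le le_rfl h1 h2

theorem cop' {K : Subgroup Γ} (hK : K ≤ G) : (Nat.card (zpowers x)).Coprime (Nat.card K) :=
  Coprime.coprime_of_le h.cop le_rfl hK

theorem dec {K : Subgroup Γ} (hK : K ≤ G) (hx : zpowers x ≤ normalizer (K : Set Γ)) :
    ⁅K, zpowers x⁆ ⊔ K ⊓ Cx x = K :=
  Coprime.commutator_sup_centralizer hx (h.cop' hK) (Or.inl (Coprime.isSolvable_zpowers x))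

theorem le_com : G ⊓ Cx x ≤ ⁅G, G⁆ := by
  have := h.nor
  have h1 := Coprime.centralizer_inf_commutator_le (K := G) le_normalizer_of_normal h.cop
  rwa [h.com, inf_comm] at h1

theorem cent_normal : (G ⊓ centralizer (G : Set Γ)).Normal := by
  have := h.nor
  infer_instance

theorem Z_le : G ⊓ centralizer (G : Set Γ) ≤ center Γ := by
  have := h.cent_normal
  have h1 : ⁅G ⊓ centralizer (G : Set Γ), zpowers x⁆ ≤ G ⊓ centralizer (G : Set Γ) :=
    commutator_le_left _ _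
  have h2 : ⁅G ⊓ centralizer (G : Set Γ), zpowers x⁆ = ⊥ := by
    refine h.eq_bot (h.normal_of ?_ (normalizer_commutator_ge_right _ _)) (h1.trans inf_le_left) ?_
    · exact (le_centralizer_iff.1 (h1.trans inf_le_right)).trans (centralizer_le_normalizer _)
    · have := Core.isMulCommutative_inf_centralizer G
      rw [inf_comm, Coprime.centralizer_inf_commutator_eq_bot le_normalizer_of_normal (h.cop' inf_le_left)]
      exact bot_le
  rw [← centralizer_univ, ← coe_top, ← h.sup, Core.centralizer_sup]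
  exact le_inf inf_le_right (commutator_eq_bot_iff_le_centralizer.1 h2)

theorem Z_inf {z : Γ} (h1 : z ∈ G) (h2 : z ∈ center Γ) (h3 : z ∈ Dg x G) : z = 1 :=
  zpowers_eq_bot.1 (h.eq_bot (Core.normal_of_le_center (zpowers_le.2 h2)) (zpowers_le.2 h1)
    (inf_le_left.trans (zpowers_le.2 h3)))

/-- the subgroup `(D ∩ K)[K, P]` meets the centre trivially -/
theorem N0 {K : Subgroup Γ} (hK : K < G) (hx : zpowers x ≤ normalizer (K : Set Γ)) {z : Γ}
    (h2 : z ∈ center Γ) (h3 : z ∈ K ⊓ Dg x G ⊔ ⁅K, zpowers x⁆) : z = 1 := by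
  refine h.Z_inf (sup_le (inf_le_left.trans hK.le)
    ((Coprime.commutator_le_of_le_normalizer hx).trans hK.le) h3) h2 ?_
  have h4 := Core.sup_inf_assoc_of_le_normalizer (A := K ⊓ Dg x G) (B := ⁅K, zpowers x⁆) (C := Cx x)
    (inf_le_right.trans (Dg_le x G)) (inf_le_left.trans (normalizer_commutator_ge_left _ _))
  have h5 : z ∈ K ⊓ Dg x G ⊔ ⁅K, zpowers x⁆ ⊓ Cx x := h4 ▸ ⟨h3, center_le_centralizer _ h2⟩
  exact sup_le inf_le_right (h.sub K hK hx) h5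

theorem isPGroup {z : Γ} (h1 : z ∈ G) (h2 : z ∈ center Γ) {r : ℕ} [hr : Fact r.Prime]
    (hz : orderOf z = r) : IsPGroup r G := by
  have := h.nor
  obtain ⟨R, r1, r2, r3, r4⟩ := Coprime.exists_invariant_sylow' r (K := G) le_normalizer_of_normal h.cop
    (Or.inr h.sol)
  by_contra hG
  have hR : R < G := lt_of_le_of_ne r1 (fun e => hG (e ▸ r2))
  have hn := Core.normal_of_le_center (zpowers_le.2 h2)
  have z1 : z ≠ 1 := by rintro rfl; exact hr.out.ne_one (by rw [← hz, orderOf_one])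
  have hzR : z ∈ R := by
    have h3 : IsPGroup r (zpowers z) := IsPGroup.of_card (n := 1) (by rw [Nat.card_zpowers, hz, pow_one])
    have h4 := Coprime.eq_of_sylow_le r2 r3 (le_sup_left : R ≤ R ⊔ zpowers z)
      (sup_le r1 (zpowers_le.2 h1)) (r2.to_sup_of_normal_right h3)
    exact h4 ▸ mem_sup_right (mem_zpowers z)
  have hcop : (Nat.card R).Coprime R.index := by
    obtain ⟨n, hn⟩ := IsPGroup.iff_card.1 r2
    rw [hn]
    refine Nat.Coprime.pow_left _ ((Nat.Prime.coprime_iff_not_dvd hr.out).2 fun e => ?_)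
    rw [← relIndex_mul_index r1, hr.out.dvd_mul] at e
    refine e.elim r3 fun e => ?_
    have h5 : G.index ∣ Nat.card (zpowers x) := by
      rw [← relIndex_top_right]; exact Coprime.relIndex_dvd_of_le_sup le_normalizer_of_normal h.sup.ge
    exact hr.out.ne_one (Nat.eq_one_of_dvd_coprimes h.cop (e.trans h5) (hz ▸ orderOf_dvd_natCard G h1))
  have h3 : z ∈ ⁅R, R⁆ := Transfer.inf_commutator_inf_center_le_of_hall hcop
    ⟨⟨hzR, commutator_mono le_top le_top (h.le_com ⟨h1, center_le_centralizer _ h2⟩)⟩, h2⟩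
  have h4 : R ≤ (R ⊓ Dg x G ⊔ ⁅R, zpowers x⁆) ⊔ zpowers z := by
    refine (h.dec r1 r4).ge.trans (sup_le (le_sup_of_le_left le_sup_right) fun c hc => ?_)
    obtain ⟨d, hd, v, hv, rfl⟩ := mem_sup_of_normal_right.1
      (h.quo _ hn (by simpa using z1) (zpowers_le.2 h1) ⟨r1 hc.1, hc.2⟩)
    exact mul_mem (mem_sup_left (mem_sup_left
      ⟨(mul_mem_cancel_right (zpowers_le.2 hzR hv)).1 hc.1, hd⟩)) (mem_sup_right hv)
  have h5 := commutator_mono h4 h4 h3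
  rw [Core.commutator_sup_self_of_le_centralizer ((zpowers_le.2 h2).trans (center_le_centralizer _))] at h5
  exact z1 (h.N0 hR r4 h2 (commutator_le_self _ h5))

theorem zpowers_sq : zpowers (x ^ 2) = zpowers x := by
  refine le_antisymm (zpowers_le.2 (pow_mem (mem_zpowers x) 2)) (zpowers_le.2 ?_)
  rw [mem_zpowers_pow_iff, h.ord]
  exact (Nat.coprime_primes Nat.prime_two h.prime).2 h.odd.symm

theorem cen {y t : Γ} (hy : zpowers y = zpowers x) (ht : ∀ g ∈ G, t * (g⁻¹ * (y * g * y⁻¹)) * t⁻¹ =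
    g⁻¹ * (y * g * y⁻¹)) : t ∈ centralizer (G : Set Γ) := by
  have := h.nor
  have h1 : ⁅G, zpowers y⁆ ≤ centralizer {t} := comm_le_of (le_normalizer_of_normal (mem_top y))
    fun g hg => mem_centralizer_singleton_iff.2 (mul_inv_eq_iff_eq_mul.1 (ht g hg)).symm
  rw [hy, h.com] at h1
  exact fun g hg => mem_centralizer_singleton_iff.1 (h1 hg)

theorem cen2 {y w : Γ} (hy : zpowers y = zpowers x) (hw : ∀ g ∈ G, ⁅w, g⁆ ∈ center Γ)
    (h1 : w⁻¹ * (y * w * y⁻¹) ∈ center Γ) : w ∈ centralizer (G : Set Γ) := by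
  have := h.nor
  refine h.cen hy fun g hg => ?_
  obtain ⟨z, hz⟩ : ∃ z, z = w⁻¹ * (y * w * y⁻¹) := ⟨_, rfl⟩
  rw [← hz] at h1
  have e1 : y * w * y⁻¹ = w * z := by rw [hz]; group
  have e2 : ⁅w, y * g * y⁻¹⁆ = ⁅w, g⁆ :=
    calc _ = w * (y * g * y⁻¹ * z * z⁻¹) * w⁻¹ * (y * g * y⁻¹)⁻¹ := by
          simp only [commutatorElement_def]; group
      _ = w * z * (y * g * y⁻¹) * (w * z)⁻¹ * (y * g * y⁻¹)⁻¹ := by
          rw [mem_center_iff.1 h1]; group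
      _ = y * ⁅w, g⁆ * y⁻¹ := by rw [← e1]; simp only [commutatorElement_def]; group
      _ = _ := by rw [mem_center_iff.1 (hw g hg), mul_inv_cancel_right]
  calc _ = (⁅w, g⁆ * g)⁻¹ * (⁅w, y * g * y⁻¹⁆ * (y * g * y⁻¹)) := by
        simp only [commutatorElement_def]; group
    _ = _ := by rw [e2]; group

theorem not_nilpotent (hG : Group.IsNilpotent G) : False := by
  have := h.nor
  have hZ := h.Z_le
  have hG0 : G ≠ ⊥ := fun e => h.bad (e ▸ inf_le_left.trans bot_le)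
  have hne : ¬ G ≤ centralizer (G : Set Γ) := fun e => h.bad (h.le_com.trans
    ((commutator_eq_bot_iff_le_centralizer.2 e).le.trans bot_le))
  obtain ⟨W, ⟨w1, w2, w3⟩, hmin⟩ := (wellFounded_lt (α := Subgroup Γ)).has_min
    {W | W.Normal ∧ W ≤ G ∧ ¬ W ≤ centralizer (G : Set Γ)} ⟨G, this, le_rfl, hne⟩
  have hW : ∀ w ∈ W, ∀ g ∈ G, ⁅w, g⁆ ∈ center Γ := by
    have h1 : ⁅W, G⁆ < W := Coprime.commutator_lt_of_isNilpotent hG w2 le_rfl le_normalizer_of_normal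
      (by rintro rfl; exact w3 bot_le)
    have h2 : ⁅W, G⁆ ≤ centralizer (G : Set Γ) := by
      by_contra e
      exact hmin _ ⟨inferInstance, h1.le.trans w2, e⟩ h1
    exact fun w hw g hg => hZ ⟨w2 (h1.le (commutator_mem_commutator hw hg)),
      h2 (commutator_mem_commutator hw hg)⟩
  have hN : ⁅G, G⁆ < G := Coprime.commutator_lt_of_isNilpotent hG le_rfl le_rfl le_normalizer hG0
  have hin : ∀ g ∈ G, ∀ a ∈ Lg x g, ⁅a, x * a * x⁻¹⁆ ∈ ⁅G, G⁆ ⊓ Dg x G ⊔ ⁅⁅G, G⁆, zpowers x⁆ := by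
    intro g hg a ha
    have h1 := Lg_le (le_normalizer_of_normal (H := G)) hg (x := x)
    have ha' := (Lg_norm x g (mem_zpowers x) a).1 ha
    have h2 := h.dec (K := ⁅G, G⁆ ⊓ Lg x g) (inf_le_left.trans hN.le)
      ((le_inf le_normalizer_of_normal (Lg_norm x g)).trans (inf_normalizer_le_normalizer_inf))
    have h3 : ⁅a, x * a * x⁻¹⁆ ∈ ⁅G, G⁆ ⊓ Lg x g := ⟨commutator_mem_commutator (h1 ha) (h1 ha'),
      commutator_le_self _ (commutator_mem_commutator ha ha')⟩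
    refine sup_le (le_sup_of_le_right (commutator_mono inf_le_left le_rfl)) (le_sup_of_le_left ?_)
      (h2.ge h3)
    exact le_inf (inf_le_left.trans inf_le_left)
      ((inf_le_inf_right _ inf_le_right).trans (le_Dg x hg))
  have conjG : ∀ g ∈ G, ∀ y, y * g * y⁻¹ ∈ G := fun g hg y => this.conj_mem g hg y
  have key : ∀ w ∈ W, ∀ g ∈ G, ∀ s a, s = w⁻¹ * (x * w * x⁻¹) → a = g⁻¹ * (x * g * x⁻¹) →
      ⁅s, x * a * x⁻¹ * (x * s * x⁻¹)⁆ * ⁅x * s * x⁻¹, a⁻¹⁆ = 1 := by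
    intro w hw g hg s a hs ha
    have s1 : s ∈ W := hs ▸ mul_mem (inv_mem hw) (w1.conj_mem w hw x)
    have s2 := w1.conj_mem s s1 x
    have a1 : a ∈ G := ha ▸ mul_mem (inv_mem hg) (conjG g hg x)
    have z1 := hW _ s1 _ (mul_mem (conjG a a1 x) (w2 s2))
    have z2 := hW _ s2 _ (inv_mem a1)
    have z3 := hW _ (inv_mem hw) _ a1
    refine h.N0 hN le_normalizer_of_normal (mul_mem z1 z2) ?_
    have h1 := hin g hg _ (ha ▸ mem_Lg1 x g : a ∈ Lg x g)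
    have h2 := hin _ (mul_mem hg (w2 hw)) _ (mem_Lg1 x (g * w))
    have e1 : (g * w)⁻¹ * (x * (g * w) * x⁻¹) = ⁅w⁻¹, a⁆ * (a * s) := by
      rw [hs, ha]; simp only [commutatorElement_def]; group
    have e2 : ∀ z ∈ center Γ, ∀ b, ⁅z * b, x * (z * b) * x⁻¹⁆ = ⁅b, x * b * x⁻¹⁆ := by
      intro z hz b
      have e := mem_center_iff.1 hz
      calc _ = z * (b * x * z) * (b * x⁻¹ * b⁻¹ * z⁻¹) * (x * b⁻¹ * z⁻¹) * x⁻¹ := by
            simp only [commutatorElement_def]; group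
        _ = z * (z * (b * x * (b * x⁻¹ * b⁻¹) * z⁻¹) * (x * b⁻¹) * z⁻¹) * x⁻¹ := by rw [e]; group
        _ = _ := by
            rw [mem_center_iff.1 (inv_mem hz), mem_center_iff.1 (inv_mem hz)]
            simp only [commutatorElement_def]; group
    rw [e1, e2 _ z3] at h2
    have e3 : ⁅a * s, x * (a * s) * x⁻¹⁆ = ⁅s, x * a * x⁻¹ * (x * s * x⁻¹)⁆ * ⁅x * s * x⁻¹, a⁻¹⁆ *
        ⁅a, x * a * x⁻¹⁆ :=
      calc _ = a * ⁅s, x * a * x⁻¹ * (x * s * x⁻¹)⁆ * ((x * a * x⁻¹) * ⁅x * s * x⁻¹, a⁻¹⁆) * a⁻¹ *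
            (x * a * x⁻¹)⁻¹ := by simp only [commutatorElement_def]; group
        _ = ⁅s, x * a * x⁻¹ * (x * s * x⁻¹)⁆ * (a * ⁅x * s * x⁻¹, a⁻¹⁆) * (x * a * x⁻¹) * a⁻¹ *
            (x * a * x⁻¹)⁻¹ := by rw [mem_center_iff.1 z1, mem_center_iff.1 z2]; simp only [mul_assoc]
        _ = _ := by rw [mem_center_iff.1 z2, commutatorElement_def a]; simp only [mul_assoc]
    rw [e3] at h2
    exact (mul_mem_cancel_right h1).1 h2
  refine w3 fun w hw => h.cen2 rfl (hW w hw) ?_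
  obtain ⟨s, hs⟩ : ∃ s, s = w⁻¹ * (x * w * x⁻¹) := ⟨_, rfl⟩
  have s1 : s ∈ W := hs ▸ mul_mem (inv_mem hw) (w1.conj_mem w hw x)
  rw [← hs]
  refine hZ ⟨w2 s1, h.cen2 h.zpowers_sq (hW s s1) (hZ ⟨G.mul_mem (G.inv_mem (w2 s1)) (conjG s (w2 s1) _), ?_⟩)⟩
  have k0 : ⁅s, x * s * x⁻¹⁆ = 1 := by simpa using key w hw 1 (one_mem G) s 1 hs (by simp)
  refine h.cen rfl fun g hg => ?_
  obtain ⟨a, ha⟩ : ∃ a, a = (x⁻¹ * g * x)⁻¹ * (x * (x⁻¹ * g * x) * x⁻¹) := ⟨_, rfl⟩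
  have g1 : x⁻¹ * g * x ∈ G := by simpa using conjG g hg x⁻¹
  have a1 : a ∈ G := ha ▸ mul_mem (inv_mem g1) (conjG _ g1 x)
  have k1 := key w hw _ g1 s a hs ha
  have e1 : g⁻¹ * (x * g * x⁻¹) = x * a * x⁻¹ := by rw [ha]; group
  rw [e1]
  rw [commutatorElement_mul_right_eq_mul_conj, k0, mul_one, mul_inv_cancel_right] at k1
  have z2 := hW _ (w1.conj_mem s s1 x) _ (inv_mem a1)
  have k2 : ⁅s, x * a * x⁻¹⁆ = ⁅x ^ 2 * s * (x ^ 2)⁻¹, x * a * x⁻¹⁆ :=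
    calc _ = ⁅x * s * x⁻¹, a⁻¹⁆⁻¹ := eq_inv_of_mul_eq_one_left k1
      _ = x * a * ⁅x * s * x⁻¹, a⁻¹⁆⁻¹ * (x * a)⁻¹ := by
          rw [mem_center_iff.1 (inv_mem z2), mul_inv_cancel_right]
      _ = _ := by simp only [commutatorElement_def, sq]; group
  calc _ = s⁻¹ * (⁅x ^ 2 * s * (x ^ 2)⁻¹, x * a * x⁻¹⁆ * (x * a * x⁻¹)) * s := by
        simp only [commutatorElement_def]; group
    _ = _ := by rw [← k2]; simp only [commutatorElement_def]; group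

theorem Z_eq : G ⊓ centralizer (G : Set Γ) = ⊥ := by
  by_contra h0
  obtain ⟨z, hz, hr⟩ := Coprime.exists_prime_orderOf_mem h0
  have := Fact.mk hr
  exact h.not_nilpotent (h.isPGroup hz.1 (h.Z_le hz) rfl).isNilpotent

end Ctx

end CfsgLib.FlavF
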